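import Cfsg.Agent.H386.Rg.AlphaA
import Cfsg.Agent.H383.Rg.Fin
import Cfsg.Agent.H72.Rg.SemiBound
import Cfsg.Agent.H694.Rg.NatKill

/-!
# S3691, residual cases (alpha) (helper386)

`alpha` : the configuration `O_p(K) ≠ 1` of the residual cases is impossible.
-/

set_option autoImplicit false

namespace Cfsg.Agent.H386.Rg

open Module Cfsg.Agent.H50.Her Cfsg.Agent.H667.HerFin

universe u

/-- a perfect subgroup lies in every term of the derived series -/
theorem le_of_perfect {X : Type*} [Group X] {Γ L R : Subgroup X} (hL : L ≤ Γ) (hp : ⁅L, L⁆ = L)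
    (hder : ∃ k, (derivedSeries Γ k).map Γ.subtype ≤ R) : L ≤ R := by
  obtain ⟨k, hk⟩ := hder
  refine le_trans ?_ hk
  clear hk
  induction k with
  | zero =>
    rw [derivedSeries_zero, ← MonoidHom.range_eq_map, Subgroup.range_subtype]
    exact hL
  | succ k ih =>
    rw [derivedSeries_succ, Subgroup.map_commutator]
    calc L = ⁅L, L⁆ := hp.symm
      _ ≤ _ := Subgroup.commutator_mono ih ih

/-- the small linear groups are excluded by the size of `U` -/
theorem dim_kill {p n d : ℕ} (hp : p.Prime) (hd : p ^ d = p ^ n) (hbig : 2 ^ 50 ≤ p ^ n) :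
    ¬ ((p = 3 ∧ d = 2) ∨ (d = 2 ∧ p ≤ 59) ∨ (d = 4 ∧ p = 3) ∨ (p = 2 ∧ d ≤ 6) ∨ (p = 3 ∧ d = 6)) := by
  rw [← hd] at hbig
  rintro (⟨rfl, rfl⟩ | ⟨rfl, h⟩ | ⟨rfl, rfl⟩ | ⟨rfl, h⟩ | ⟨rfl, rfl⟩)
  · norm_num at hbig
  · have := Nat.pow_le_pow_left h 2
    norm_num at this hbig
    omega
  · norm_num at hbig
  · have := Nat.pow_le_pow_right (n := 2) (by norm_num) h
    norm_num at this hbig
    omega
  · norm_num at hbig

theorem zmod_two (z : ZMod 2) : z = 0 ∨ z = 1 := by
  revert z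
  decide

/-- the prime `r` divides `p ^ n - 1` -/
theorem dvd_of_ord {p r n : ℕ} (hp : 0 < p) (hrn : orderOf (p : ZMod r) = n) : r ∣ p ^ n - 1 := by
  rw [← ZMod.natCast_eq_zero_iff, Nat.cast_sub (Nat.one_le_pow _ _ hp), Nat.cast_pow, Nat.cast_one, ← hrn,
    pow_orderOf_eq_one, sub_self]

/-- the order of `SL_2(F)` -/
theorem card_sl2 {F : Type*} [Field F] [Fintype F] :
    Nat.card (Matrix.SpecialLinearGroup (Fin 2) F) = Fintype.card F * (Fintype.card F ^ 2 - 1) := by
  have h := S0242.result (F := F) rfl 2 (by norm_num)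
  have hq : 1 < Fintype.card F := Fintype.one_lt_card
  generalize Fintype.card F = q at h hq ⊢
  rw [Fin.prod_univ_two] at h
  simp only [Fin.val_zero, pow_zero, Fin.val_one, pow_one] at h
  have e1 : q ^ 2 - q = (q - 1) * q := by rw [Nat.sub_mul, one_mul, pow_two]
  rw [e1] at h
  apply Nat.eq_of_mul_eq_mul_left (show 0 < q - 1 by omega)
  rw [h]
  ring

/-- **(alpha)**, abstract form -/
theorem alpha (hMain : Main.{u}) {p n : ℕ} [Fact p.Prime] {V : Type*} [AddCommGroup V] [Finite V] (hV : ∀ v : V, p • v = 0)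
    {U : Type u} [AddCommGroup U] [Module (ZMod p) U] [Finite U] (hU : Nat.card U = p ^ n) (hbig : 2 ^ 50 ≤ p ^ n)
    {D : Type*} [Group D] [Finite D] [DistribMulAction D V] (pr : V →+ U) (hpr : Function.Surjective pr)
    (τ : D →* (U ≃ₗ[ZMod p] U)) (hτ : ∀ (x : D) (v : V), pr (x • v) = τ x (pr v)) (hker : Nat.card pr.ker = Nat.card U)
    (hAp : IsPGroup p τ.ker) (hAtriv : ∀ a ∈ τ.ker, ∀ w ∈ pr.ker, a • w = w)
    (hAfix : ∀ a ∈ τ.ker, a ≠ 1 → ∀ v : V, a • v = v → v ∈ pr.ker) (hAne : τ.ker ≠ ⊥) (hAlt : Nat.card τ.ker < p ^ n)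
    (Γ : Subgroup (U ≃ₗ[ZMod p] U)) (htr : ∀ v w : U, v ≠ 0 → w ≠ 0 → ∃ g ∈ Γ, g v = w)
    (hder : ∃ k, (derivedSeries Γ k).map Γ.subtype ≤ τ.range)
    {Z : Type*} [AddCommGroup Z] (ε : Z →+ Z) (β : V →+ V →+ Z) (hβD : ∀ (x : D) (u v : V), β (x • u) (x • v) = β u v)
    (hβn : ∀ u : V, (∀ w ∈ pr.ker, β u w = 0) → u ∈ pr.ker)
    (hβA : ∀ a ∈ τ.ker, ∀ u v : V, β u (a • v - v) = ε (β v (a • u - u)))
    (C x : ℕ) (hC0 : 0 < C) (hC : Nat.card D ∣ C * p ^ x * (p ^ n - 1)) (hC2 : (C + 1) ^ 3 < p ^ n)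
    (hΓp : n ^ 2 * p ^ n < (Nat.card τ.ker * p ^ (Nat.card Γ).factorization p) ^ 2)
    {r : ℕ} (hr : r.Prime) (hrn : orderOf (p : ZMod r) = n) (hrD : r ∣ Nat.card D)
    (d : D → V) (hd : ∀ x, d x ∈ pr.ker) (hdc : ∀ x y : D, d (x * y) = d x + x • d y)
    (hfree : ∀ u : U, u ≠ 0 → ∃ v : V, pr v = u ∧ ∀ x : D, x • v + d x = v → x = 1) : False := by
  classical
  have hp : p.Prime := Fact.out
  have := Fact.mk hr
  have hn : 0 < n := by
    rcases Nat.eq_zero_or_pos n with h | h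
    · rw [h, pow_zero] at hbig
      norm_num at hbig
    · exact h
  have hS : Sit p n pr τ := ⟨hV, hU, hn, hpr, hτ, hker, hAp, hAtriv, hAfix, hAlt⟩
  obtain ⟨a₀, ha₀, ha₁⟩ : ∃ a ∈ τ.ker, a ≠ 1 := by
    by_contra hcon
    push Not at hcon
    exact hAne ((Subgroup.eq_bot_iff_forall _).2 hcon)
  have hpA : p ∣ Nat.card τ.ker := by
    obtain ⟨k, hk⟩ := IsPGroup.iff_card.1 hAp
    rcases Nat.eq_zero_or_pos k with h | h
    · rw [h, pow_zero] at hk
      exact absurd (Subgroup.card_eq_one.1 hk) hAne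
    · rw [hk]
      exact dvd_pow_self p h.ne'
  have hn2 : 2 ≤ n := by
    by_contra hcon
    have h1 : n = 1 := by omega
    rw [h1, pow_one] at hAlt
    have h2 := Nat.le_of_dvd Nat.card_pos hpA
    omega
  have hrp : r ≠ p := ne_of_ord hr hrn hn
  have hr2 : r ≠ 2 := by
    rintro rfl
    rcases zmod_two (p : ZMod 2) with h2 | h2
    · rw [ZMod.natCast_eq_zero_iff] at h2
      exact hrp ((Nat.prime_dvd_prime_iff_eq hr hp).1 h2)
    · rw [h2, orderOf_one] at hrn
      omega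
  obtain ⟨y, hy⟩ := exists_prime_orderOf_dvd_card' r hrD
  have hsq := hS.sq_le hr hrn hr2 hy ε β hβD hβn hβA
  have hUnt : Nontrivial U := by
    obtain ⟨v, hv⟩ := hS.exists_not_mem
    exact ⟨⟨pr v, 0, hv⟩⟩
  have hfr : p ^ finrank (ZMod p) U = p ^ n := by
    rw [← hU, Module.natCard_eq_pow_finrank (K := ZMod p) (V := U), Nat.card_zmod]
  obtain ⟨A, -, hA, h⟩ := hMain p U Γ ⊥ htr bot_le (by
      intro g _ m hm
      rw [Subgroup.mem_bot] at hm ⊢
      rw [hm, mul_one, mul_inv_cancel]) (by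
      intro a ha b hb
      rw [Subgroup.mem_bot] at ha hb
      rw [ha, hb])
  rcases h with h | h | ⟨L, b, hL, hq, -, -, h | h⟩
  · -- a group of semilinear maps
    have h1 := Cfsg.Agent.H72.Rg.semi_bound hU Γ h
    have h2 : (Nat.card τ.ker * p ^ (Nat.card Γ).factorization p) ^ 2 ≤ n ^ 2 * p ^ n := by
      rw [mul_pow, mul_comm]
      exact Nat.mul_le_mul (Nat.pow_le_pow_left h1 2) hsq
    omega
  · exact dim_kill hp hfr hbig (by
      rcases h with ⟨h1, h2, -⟩ | ⟨h1, h2, -⟩ | ⟨h1, h2, -⟩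
      · exact Or.inl ⟨h1, h2⟩
      · exact Or.inr (Or.inl ⟨h1, by omega⟩)
      · exact Or.inr (Or.inr (Or.inl ⟨h1, h2⟩)))
  · -- the natural case
    have hLr : L ≤ τ.range := le_of_perfect hL.le hL.perf hder
    have hLc : Nat.card L ∣ C * p ^ x * (p ^ n - 1) :=
      ((Subgroup.card_dvd_of_le hLr).trans (Subgroup.card_range_dvd τ)).trans hC
    obtain ⟨F, iF, iF', iM, hF2, hFL, hFdet⟩ := Cfsg.Agent.H694.Rg.nat_kill hU L h C x hC0 hLc hC2
    have : Module.Finite F U := Module.Finite.of_finite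
    have hcF : Fintype.card F ^ 2 = p ^ n := by
      rw [← hU, Module.natCard_eq_pow_finrank (K := F) (V := U), Nat.card_eq_fintype_card, hF2]
    obtain ⟨c, -, hc⟩ := (Nat.dvd_prime_pow hp).1 (hcF ▸ dvd_pow_self (Fintype.card F) two_ne_zero)
    have h16 : 16 ≤ Fintype.card F := by
      by_contra hcon
      have h1 : Fintype.card F ≤ 15 := by omega
      have h2 := Nat.pow_le_pow_left h1 2
      rw [hcF] at h2
      norm_num at hbig h2
      omega
    let ρ : L →* (U ≃ₗ[F] U) :=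
      { toFun := fun l => { (l : U ≃ₗ[ZMod p] U).toAddEquiv with map_smul' := fun c v => hFL l l.2 c v }
        map_one' := by ext v; rfl
        map_mul' := fun x y => by ext v; rfl }
    have hρi : Function.Injective ρ := by
      intro x y hxy
      apply Subtype.ext
      ext v
      exact DFunLike.congr_fun hxy v
    have hex' : ∀ g : U ≃ₗ[F] U, (∃ h ∈ L, ∀ v, h v = g v) ↔ ∃ x, ρ x = g := by
      intro g
      constructor
      · rintro ⟨h, hh, hv⟩
        exact ⟨⟨h, hh⟩, by ext v; exact hv v⟩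
      · rintro ⟨x, rfl⟩
        exact ⟨x, x.2, fun v => rfl⟩
    obtain ⟨eL⟩ := exists_sl ρ hρi fun g => (hFdet g).trans (hex' g)
    have hrL : r ∣ Nat.card L := by
      rw [Nat.card_congr eL.toEquiv, hF2, card_sl2, hcF]
      exact (dvd_of_ord hp.pos hrn).mul_left _
    -- the centraliser of `A` covers `L`
    have hcent : ∀ a ∈ τ.ker, ∀ x ∈ L.comap τ, a * x = x * a := by
      set M : Subgroup (U ≃ₗ[ZMod p] U) := (Subgroup.centralizer (τ.ker : Set D) ⊓ L.comap τ).map τ with hM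
      have hML : M ≤ L := by
        rintro _ ⟨m, hm, rfl⟩
        exact hm.2
      have hMn : Nor L M := by
        rintro g hg _ ⟨m, ⟨hm1, hm2⟩, rfl⟩
        obtain ⟨g', rfl⟩ := hLr hg
        have hm1' : m ∈ Subgroup.centralizer (τ.ker : Set D) := hm1
        refine ⟨g' * m * g'⁻¹, Subgroup.mem_inf.2 ⟨?_, ?_⟩, by rw [map_mul, map_mul, map_inv]⟩
        · rw [Subgroup.mem_centralizer_iff] at hm1' ⊢
          intro a ha
          have h1 := hm1' (g'⁻¹ * a * g') (by
            have := (MonoidHom.normal_ker τ).conj_mem a ha g'⁻¹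
            rwa [inv_inv] at this)
          calc a * (g' * m * g'⁻¹) = g' * ((g'⁻¹ * a * g') * m) * g'⁻¹ := by group
            _ = g' * (m * (g'⁻¹ * a * g')) * g'⁻¹ := by rw [h1]
            _ = g' * m * g'⁻¹ * a := by group
        · rw [Subgroup.mem_comap, map_mul, map_mul, map_inv]
          exact L.mul_mem (L.mul_mem hg hm2) (L.inv_mem hg)
      -- an element of order `r` in `L`, lifted
      have hfin : Finite (U ≃ₗ[ZMod p] U) := Finite.of_injective (fun g => g.toEquiv) fun g h e => LinearEquiv.toEquiv_injective e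
      obtain ⟨z, hz⟩ := exists_prime_orderOf_dvd_card' r hrL
      obtain ⟨z', hz'⟩ := hLr z.2
      obtain ⟨k, hk⟩ : ∃ k, (z' ^ r) ^ p ^ k = 1 := by
        have h1 : z' ^ r ∈ τ.ker := by
          rw [MonoidHom.mem_ker, map_pow, hz', ← SubmonoidClass.coe_pow, ← hz, pow_orderOf_eq_one]; rfl
        obtain ⟨k, hk⟩ := hAp ⟨z' ^ r, h1⟩
        exact ⟨k, congrArg Subtype.val hk⟩
      have hzr : (z' ^ p ^ k) ^ r = 1 := by rw [← pow_mul, mul_comm, pow_mul, hk]
      have hzc : z' ^ p ^ k ∈ Subgroup.centralizer (τ.ker : Set D) := by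
        rw [Subgroup.mem_centralizer_iff]
        intro a ha
        exact (hS.comm_of_pow hr hrn hzr ha).symm
      have hzM : (z : U ≃ₗ[ZMod p] U) ^ p ^ k ∈ M := by
        refine ⟨z' ^ p ^ k, Subgroup.mem_inf.2 ⟨hzc, ?_⟩, by rw [map_pow, hz']⟩
        rw [Subgroup.mem_comap, map_pow, hz']
        exact L.pow_mem z.2 _
      have hzM' : (z : U ≃ₗ[ZMod p] U) ∈ M := by
        have h1 : (orderOf (z : U ≃ₗ[ZMod p] U)).Coprime (p ^ k) := by
          rw [Subgroup.orderOf_coe, hz]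
          exact ((Nat.coprime_primes hr hp).2 hrp).pow_right k
        have h2 := Subgroup.zpowers_le.2 hzM
        have h3 : (z : U ≃ₗ[ZMod p] U) ∈ Subgroup.zpowers ((z : U ≃ₗ[ZMod p] U) ^ p ^ k) := by
          obtain ⟨m, hm⟩ := exists_pow_eq_self_of_coprime h1.symm
          exact ⟨m, by simpa using hm⟩
        exact h2 h3
      rcases hq M hML hMn with h1 | h1
      · -- `M = L`
        intro a ha x hx
        have h2 : τ x ∈ M := by rw [h1]; exact hx
        obtain ⟨m, ⟨hm1, -⟩, hm2⟩ := h2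
        have h3 : m⁻¹ * x ∈ τ.ker := by rw [MonoidHom.mem_ker, map_mul, map_inv, hm2, inv_mul_cancel]
        have h4 := hS.comm ha h3
        have h5 := (Subgroup.mem_centralizer_iff.1 hm1) a ha
        calc a * x = (a * m) * (m⁻¹ * x) := by group
          _ = m * (a * (m⁻¹ * x)) := by rw [h5, mul_assoc]
          _ = x * a := by rw [h4]; group
      · exfalso
        -- `z` is central in `L`
        have h2 : (z : U ≃ₗ[ZMod p] U) ∈ A := h1 hzM'
        have h3 : ∀ l ∈ L, l * (z : U ≃ₗ[ZMod p] U) = z * l := by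
          intro l hl
          exact ((Subgroup.mem_centralizer_iff.1 (hL.L_le hl)) _ h2).symm
        have h4 : z ∈ Subgroup.center L := by
          rw [Subgroup.mem_center_iff]
          intro l
          exact Subtype.ext (h3 l l.2)
        have h5 : eL z ∈ Subgroup.center (Matrix.SpecialLinearGroup (Fin (finrank F U)) F) := by
          rw [Subgroup.mem_center_iff]
          intro g
          obtain ⟨l, rfl⟩ := eL.surjective g
          rw [← map_mul, ← map_mul, (Subgroup.mem_center_iff.1 h4) l]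
        have h6 : (eL z) ^ 2 = 1 := by
          rw [Matrix.SpecialLinearGroup.mem_center_iff] at h5
          obtain ⟨c, hc1, hc2⟩ := h5
          rw [Fintype.card_fin, hF2] at hc1
          apply Subtype.ext
          rw [Matrix.SpecialLinearGroup.coe_pow, ← hc2, ← map_pow, hc1, map_one]
          rfl
        have h7 : z ^ 2 = 1 := eL.injective (by rw [map_pow, h6, map_one])
        have h8 := orderOf_dvd_of_pow_eq_one h7
        rw [hz] at h8
        exact hr2 ((Nat.prime_dvd_prime_iff_eq hr Nat.prime_two).1 h8)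
    -- the final step
    let pL : L.comap τ →* L := (τ.comp (L.comap τ).subtype).codRestrict L fun x => x.2
    have hker' : (ρ.comp pL).ker.map (L.comap τ).subtype = τ.ker := by
      ext a
      constructor
      · rintro ⟨x, hx, rfl⟩
        have h1 : pL x = 1 := hρi (by rw [map_one]; exact hx)
        exact congrArg Subtype.val h1
      · intro ha
        have h1 : a ∈ L.comap τ := by
          rw [Subgroup.mem_comap, MonoidHom.mem_ker.1 ha]
          exact L.one_mem
        refine ⟨⟨a, h1⟩, ?_, rfl⟩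
        change ρ (pL ⟨a, h1⟩) = 1
        have h2 : pL ⟨a, h1⟩ = 1 := Subtype.ext ha
        rw [h2, map_one]
    have hmem : ∀ x : L.comap τ, x ∈ (ρ.comp pL).ker → (x : D) ∈ τ.ker := by
      intro x hx
      rw [← hker']
      exact ⟨x, hx, rfl⟩
    refine Cfsg.Agent.H383.Rg.fin (p := p) (b := c) (F := F) hc h16 (V := V) (U := U) (D := L.comap τ) hV hF2 pr hpr
      (ρ.comp pL) (fun x v => hτ x v) (fun x => (hFdet _).2 ⟨τ x, x.2, fun v => rfl⟩) ?_ hker ?_
      (fun a ha w hw => hAtriv a (hmem a ha) w hw)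
      (fun a ha x => Subtype.ext (hcent a (hmem a ha) x x.2)) ⟨a₀, by
        rw [Subgroup.mem_comap, MonoidHom.mem_ker.1 ha₀]
        exact L.one_mem⟩ ?_ (fun v hv => hAfix a₀ ha₀ ha₁ v hv) (fun x => d x) (fun x => hd x) (fun x y => hdc x y) ?_
    · intro g hg
      obtain ⟨h, hh, hv⟩ := (hFdet g).1 hg
      obtain ⟨x, hx⟩ := hLr hh
      refine ⟨⟨x, by rw [Subgroup.mem_comap, hx]; exact hh⟩, ?_⟩
      ext v
      change τ x v = g v
      rw [hx, hv]
    · intro a
      obtain ⟨k, hk⟩ := hAp ⟨a.1, hmem a.1 a.2⟩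
      refine ⟨k, ?_⟩
      apply Subtype.ext
      apply Subtype.ext
      have h1 := congrArg Subtype.val hk
      simpa using h1
    · have h1 : a₀ ∈ (ρ.comp pL).ker.map (L.comap τ).subtype := by rw [hker']; exact ha₀
      obtain ⟨x, hx, hxa⟩ := h1
      have h2 : x = ⟨a₀, by
        rw [Subgroup.mem_comap, MonoidHom.mem_ker.1 ha₀]
        exact L.one_mem⟩ := Subtype.ext hxa
      rw [← h2]
      exact hx
    · intro u hu
      obtain ⟨v, hv, hx⟩ := hfree u hu
      exact ⟨v, hv, fun x h1 => Subtype.ext (hx x h1)⟩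
  · exact dim_kill hp hfr hbig (by
      rcases h with ⟨⟨h1, h2⟩ | ⟨h1, h2⟩, -⟩ | ⟨h1, h2, -⟩ | ⟨h1, h2, -⟩ | ⟨h1, h2, -⟩
      · exact Or.inr (Or.inl ⟨h1, by omega⟩)
      · exact Or.inr (Or.inr (Or.inl ⟨h1, h2⟩))
      · exact Or.inr (Or.inr (Or.inr (Or.inl ⟨h1, by omega⟩)))
      · exact Or.inr (Or.inr (Or.inr (Or.inr ⟨h1, h2⟩)))
      · exact Or.inr (Or.inr (Or.inr (Or.inl ⟨h1, by omega⟩))))

end Cfsg.Agent.H386.Rg
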