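import Mathlib

/-!
# S3691, residual cases (alpha), first part (helper386)

`V` elementary abelian, `pr : V → U` surjective with kernel `W`, `|W| = |U| = p ^ n`; `D` acts on `V` and on `U` (`τ`);
`A = ker τ` acts trivially on `W` and `C_V(a) = W` for `1 ≠ a ∈ A`; `|A| < p ^ n`.

* `fix_of_small`, `fix_or` : an automorphism of order dividing `r`, `p` of order `n` modulo `r`;
* `comm_of_pow` : elements of order `r` centralise `A`;
* `sq_le` : `|A| ^ 2 ≤ p ^ n`.
-/

set_option autoImplicit false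
set_option linter.unusedSectionVars false

namespace Cfsg.Agent.H386.Rg

section gen

variable {p n r : ℕ} [hp : Fact p.Prime]

theorem ne_of_ord (hr : r.Prime) (hrn : orderOf (p : ZMod r) = n) (hn : 0 < n) : r ≠ p := by
  rintro rfl
  have := Fact.mk hr
  rw [ZMod.natCast_self] at hrn
  have h1 := pow_orderOf_eq_one (0 : ZMod r)
  rw [hrn, zero_pow hn.ne'] at h1
  exact zero_ne_one h1

theorem card_pow {A : Type*} [AddCommGroup A] [Finite A] (hA : ∀ a : A, p • a = 0) : ∃ j, Nat.card A = p ^ j := by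
  have h1 : IsPGroup p (Multiplicative A) := by
    intro a
    refine ⟨1, ?_⟩
    rw [pow_one]
    exact congrArg Multiplicative.ofAdd (hA (Multiplicative.toAdd a))
  have : Finite (Multiplicative A) := inferInstanceAs (Finite A)
  obtain ⟨j, hj⟩ := IsPGroup.iff_card.1 h1
  exact ⟨j, hj⟩

theorem card_le' {A : Type*} [AddCommGroup A] [Finite A] (S : AddSubgroup A) : Nat.card S ≤ Nat.card A :=
  Nat.card_le_card_of_injective _ Subtype.val_injective

/-- the kernel of the norm of an automorphism `f` with `f ^ r = 1` has order `p ^ j` with `n ∣ j`, no fixed points -/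
theorem norm_ker (hr : r.Prime) (hrn : orderOf (p : ZMod r) = n) (hn : 0 < n) {A : Type*} [AddCommGroup A] [Finite A]
    (hA : ∀ a : A, p • a = 0) (f : A →+ A) (hf : ∀ a, f^[r] a = a) :
    ∃ B : AddSubgroup A, (∃ j, n ∣ j ∧ Nat.card B = p ^ j) ∧ (∀ b ∈ B, f b = b → b = 0) ∧ ∀ a, f a - a ∈ B := by
  classical
  have := Fact.mk hr
  have hrp := ne_of_ord hr hrn hn
  have hadd : ∀ i (a b : A), f^[i] (a + b) = f^[i] a + f^[i] b := by
    intro i
    induction i with
    | zero => intro a b; rfl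
    | succ i ih => intro a b; rw [Function.iterate_succ_apply', Function.iterate_succ_apply',
        Function.iterate_succ_apply', ih, map_add]
  let N : A →+ A := AddMonoidHom.mk' (fun a => ∑ i ∈ Finset.range r, f^[i] a) fun a b => by
    simp only [hadd, Finset.sum_add_distrib]
  have hNa : ∀ a, N a = ∑ i ∈ Finset.range r, f^[i] a := fun a => rfl
  have hNf : ∀ a, N (f a) = N a := by
    intro a
    rw [hNa, hNa]
    have h1 : ∀ i, f^[i] (f a) = f^[i + 1] a := fun i => (Function.iterate_succ_apply f i a).symm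
    simp only [h1]
    have h2 := Finset.sum_range_succ (fun i => f^[i] a) r
    have h3 := Finset.sum_range_succ' (fun i => f^[i] a) r
    rw [h2] at h3
    rw [hf a, Function.iterate_zero, id_eq] at h3
    exact (add_right_cancel h3).symm
  have hfN : ∀ b ∈ N.ker, f b ∈ N.ker := by
    intro b hb
    rw [AddMonoidHom.mem_ker, hNf]
    exact hb
  refine ⟨N.ker, ?_, ?_, ?_⟩
  · obtain ⟨j, hj⟩ := card_pow (p := p) (A := N.ker) fun a => Subtype.ext (hA a)
    refine ⟨j, ?_, hj⟩
    have := Fintype.ofFinite N.ker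
    let g : Function.End N.ker := fun b => ⟨f b, hfN b b.2⟩
    have hgi : ∀ (i : ℕ) (b : N.ker), (((g ^ i) b : N.ker) : A) = f^[i] b := by
      intro i
      induction i with
      | zero => intro b; rfl
      | succ i ih =>
        intro b
        rw [pow_succ', Function.iterate_succ_apply', ← ih]
        rfl
    have hg : g ^ r ^ 1 = 1 := by
      rw [pow_one]
      funext b
      apply Subtype.ext
      rw [hgi]
      exact hf b
    have h1 := Equiv.Perm.card_fixedPoints_modEq hg
    have h2 : Fintype.card g.fixedPoints = 1 := by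
      rw [Fintype.card_eq_one_iff]
      refine ⟨⟨0, ?_⟩, ?_⟩
      · exact Subtype.ext (map_zero f)
      · rintro ⟨b, hb⟩
        apply Subtype.ext
        apply Subtype.ext
        have h3 : f (b : A) = b := congrArg Subtype.val hb
        have h4 : N (b : A) = 0 := b.2
        have h5 : ∀ i, f^[i] (b : A) = b := fun i => Function.iterate_fixed h3 i
        rw [hNa] at h4
        simp only [h5, Finset.sum_const, Finset.card_range] at h4
        have h6 := hA (b : A)
        have h7 : addOrderOf (b : A) ∣ Nat.gcd p r :=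
          Nat.dvd_gcd (addOrderOf_dvd_of_nsmul_eq_zero h6) (addOrderOf_dvd_of_nsmul_eq_zero h4)
        rw [(Nat.coprime_primes hp.out hr).2 hrp.symm, Nat.dvd_one, AddMonoid.addOrderOf_eq_one_iff] at h7
        exact h7
    rw [h2, ← Nat.card_eq_fintype_card, hj, ← ZMod.natCast_eq_natCast_iff, Nat.cast_pow, Nat.cast_one] at h1
    rw [← hrn]
    exact orderOf_dvd_of_pow_eq_one h1
  · intro b hb h3
    have h4 : N b = 0 := hb
    have h5 : ∀ i, f^[i] b = b := fun i => Function.iterate_fixed h3 i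
    rw [hNa] at h4
    simp only [h5, Finset.sum_const, Finset.card_range] at h4
    have h6 := hA b
    have h7 : addOrderOf b ∣ Nat.gcd p r :=
      Nat.dvd_gcd (addOrderOf_dvd_of_nsmul_eq_zero h6) (addOrderOf_dvd_of_nsmul_eq_zero h4)
    rw [(Nat.coprime_primes hp.out hr).2 hrp.symm, Nat.dvd_one, AddMonoid.addOrderOf_eq_one_iff] at h7
    exact h7
  · intro a
    rw [AddMonoidHom.mem_ker, map_sub, hNf, sub_self]

theorem fix_of_small (hr : r.Prime) (hrn : orderOf (p : ZMod r) = n) (hn : 0 < n) {A : Type*} [AddCommGroup A] [Finite A]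
    (hA : ∀ a : A, p • a = 0) (hc : Nat.card A < p ^ n) (f : A →+ A) (hf : ∀ a, f^[r] a = a) (a : A) : f a = a := by
  obtain ⟨B, ⟨j, hj, hB⟩, -, h2⟩ := norm_ker hr hrn hn hA f hf
  have h3 : Nat.card B ≤ Nat.card A := card_le' B
  rw [hB] at h3
  have h4 : j < n := (Nat.pow_lt_pow_iff_right hp.out.one_lt).1 (lt_of_le_of_lt h3 hc)
  have h5 : j = 0 := Nat.eq_zero_of_dvd_of_lt hj h4
  rw [h5, pow_zero] at hB
  have h6 := h2 a
  rw [AddSubgroup.card_eq_one.1 hB, AddSubgroup.mem_bot, sub_eq_zero] at h6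
  exact h6

theorem fix_or (hr : r.Prime) (hrn : orderOf (p : ZMod r) = n) (hn : 0 < n) {A : Type*} [AddCommGroup A] [Finite A]
    (hA : ∀ a : A, p • a = 0) (hc : Nat.card A = p ^ n) (f : A →+ A) (hf : ∀ a, f^[r] a = a) :
    (∀ a, f a = a) ∨ ∀ a, f a = a → a = 0 := by
  obtain ⟨B, ⟨j, hj, hB⟩, h1, h2⟩ := norm_ker hr hrn hn hA f hf
  have h3 : Nat.card B ≤ Nat.card A := card_le' B
  rw [hB, hc] at h3
  have h4 : j ≤ n := (Nat.pow_le_pow_iff_right hp.out.one_lt).1 h3
  rcases Nat.eq_zero_or_pos j with h5 | h5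
  · left
    intro a
    rw [h5, pow_zero] at hB
    have h6 := h2 a
    rw [AddSubgroup.card_eq_one.1 hB, AddSubgroup.mem_bot, sub_eq_zero] at h6
    exact h6
  · right
    have h6 : j = n := le_antisymm h4 (Nat.le_of_dvd h5 hj)
    rw [h6, ← hc] at hB
    have h7 : B = ⊤ := AddSubgroup.eq_top_of_card_eq B hB
    intro a ha
    exact h1 a (by rw [h7]; trivial) ha

/-- `f` without fixed points on `A` of order `p ^ n`: irreducible -/
theorem irr (hr : r.Prime) (hrn : orderOf (p : ZMod r) = n) (hn : 0 < n) {A : Type*} [AddCommGroup A] [Finite A]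
    (hA : ∀ a : A, p • a = 0) (hc : Nat.card A = p ^ n) (f : A →+ A) (hf : ∀ a, f^[r] a = a)
    (hfix : ∀ a, f a = a → a = 0) (S : AddSubgroup A) (hS : ∀ s ∈ S, f s ∈ S) : S = ⊥ ∨ S = ⊤ := by
  by_cases h1 : Nat.card S = p ^ n
  · right
    exact AddSubgroup.eq_top_of_card_eq S (by rw [h1, hc])
  · left
    have h2 : Nat.card S < p ^ n := lt_of_le_of_ne (by rw [← hc]; exact card_le' S) h1
    rw [AddSubgroup.eq_bot_iff_forall]
    intro s hs
    let g : S →+ S := (f.comp S.subtype).codRestrict S fun x => hS x x.2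
    have hgi : ∀ (i : ℕ) (b : S), ((g^[i] b : S) : A) = f^[i] b := by
      intro i
      induction i with
      | zero => intro b; rfl
      | succ i ih =>
        intro b
        rw [Function.iterate_succ_apply', Function.iterate_succ_apply', ← ih]
        rfl
    have h3 := fix_of_small hr hrn hn (A := S) (fun a => Subtype.ext (hA a)) h2 g
      (fun a => Subtype.ext (by rw [hgi]; exact hf a)) ⟨s, hs⟩
    exact hfix s (congrArg Subtype.val h3)

end gen

section act

variable {p n r : ℕ} [hp : Fact p.Prime] {V : Type*} [AddCommGroup V] [Finite V] {U : Type*} [AddCommGroup U]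
  [Module (ZMod p) U] [Finite U] {D : Type*} [Group D] [DistribMulAction D V] {pr : V →+ U}
  {τ : D →* (U ≃ₗ[ZMod p] U)}

/-- the situation: `A = ker τ` -/
structure Sit (p n : ℕ) {V : Type*} [AddCommGroup V] {U : Type*} [AddCommGroup U] [Module (ZMod p) U]
    {D : Type*} [Group D] [DistribMulAction D V] (pr : V →+ U) (τ : D →* (U ≃ₗ[ZMod p] U)) : Prop where
  exp : ∀ v : V, p • v = 0
  cardU : Nat.card U = p ^ n
  pos : 0 < n
  surj : Function.Surjective pr
  act : ∀ (x : D) (v : V), pr (x • v) = τ x (pr v)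
  cardW : Nat.card pr.ker = Nat.card U
  pgrp : IsPGroup p τ.ker
  triv : ∀ a ∈ τ.ker, ∀ w ∈ pr.ker, a • w = w
  fixA : ∀ a ∈ τ.ker, a ≠ 1 → ∀ v : V, a • v = v → v ∈ pr.ker
  lt : Nat.card τ.ker < p ^ n

namespace Sit

variable (h : Sit p n pr τ)

include h

theorem expU (u : U) : p • u = 0 := by
  obtain ⟨v, rfl⟩ := h.surj u
  rw [← map_nsmul, h.exp, map_zero]

/-- `δ a v = a v - v` -/
theorem delta_mem {a : D} (ha : a ∈ τ.ker) (v : V) : a • v - v ∈ pr.ker := by
  rw [AddMonoidHom.mem_ker, map_sub, h.act, MonoidHom.mem_ker.1 ha, LinearEquiv.coe_one, id_eq, sub_self]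

theorem delta_mul {a b : D} (ha : a ∈ τ.ker) (hb : b ∈ τ.ker) (v : V) :
    (a * b) • v - v = (a • v - v) + (b • v - v) := by
  have h1 : a • (b • v - v) = b • v - v := h.triv a ha _ (h.delta_mem hb v)
  rw [smul_sub] at h1
  rw [mul_smul, ← sub_add_sub_cancel (a • b • v) (a • v) v, h1]
  abel

theorem delta_inv {a : D} (ha : a ∈ τ.ker) (v : V) : a⁻¹ • v - v = - (a • v - v) := by
  have h1 := h.delta_mul (τ.ker.inv_mem ha) ha v
  rw [inv_mul_cancel, one_smul, sub_self] at h1
  exact eq_neg_of_add_eq_zero_left h1.symm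

theorem exists_not_mem : ∃ v : V, v ∉ pr.ker := by
  by_contra hcon
  push Not at hcon
  have h1 : ∀ u : U, u = 0 := fun u => by
    obtain ⟨v, rfl⟩ := h.surj u
    exact hcon v
  have h2 : Nat.card U = 1 := by
    rw [Nat.card_eq_one_iff_unique]
    exact ⟨⟨fun a b => by rw [h1 a, h1 b]⟩, ⟨0⟩⟩
  rw [h.cardU] at h2
  exact (Nat.one_lt_pow h.pos.ne' hp.out.one_lt).ne' h2

theorem eq_one {a : D} (ha : a ∈ τ.ker) (h1 : ∀ v : V, a • v = v) : a = 1 := by
  by_contra hne
  obtain ⟨v, hv⟩ := h.exists_not_mem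
  exact hv (h.fixA a ha hne v (h1 v))

/-- `A` is abelian -/
theorem comm {a b : D} (ha : a ∈ τ.ker) (hb : b ∈ τ.ker) : a * b = b * a := by
  have h1 : a * b * (b * a)⁻¹ = 1 := by
    have h2 : a * b * (b * a)⁻¹ ∈ τ.ker := τ.ker.mul_mem (τ.ker.mul_mem ha hb) (τ.ker.inv_mem (τ.ker.mul_mem hb ha))
    refine h.eq_one h2 fun v => ?_
    have h3 := h.delta_mul (τ.ker.mul_mem ha hb) (τ.ker.inv_mem (τ.ker.mul_mem hb ha)) v
    rw [h.delta_inv (τ.ker.mul_mem hb ha), h.delta_mul ha hb, h.delta_mul hb ha] at h3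
    rw [← sub_eq_zero, h3]
    abel
  exact mul_inv_eq_one.1 h1

/-- elements of order dividing `r` centralise `A` -/
theorem comm_of_pow (hr : r.Prime) (hrn : orderOf (p : ZMod r) = n) {x : D} (hx : x ^ r = 1) {a : D} (ha : a ∈ τ.ker) :
    x * a = a * x := by
  classical
  have hfinA : Finite τ.ker := by
    have : Finite (V → V) := inferInstance
    refine Finite.of_injective (fun a : τ.ker => fun v : V => (a : D) • v) ?_
    intro a b hab
    apply Subtype.ext
    have h1 : (a : D) * (b : D)⁻¹ = 1 := by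
      refine h.eq_one (τ.ker.mul_mem a.2 (τ.ker.inv_mem b.2)) fun v => ?_
      have h2 := congrFun hab ((b : D)⁻¹ • v)
      simp only at h2
      rw [mul_smul, h2, smul_inv_smul]
    exact mul_inv_eq_one.1 h1
  -- the additive group of the `δ a`
  let S : AddSubgroup (V →+ V) :=
    { carrier := {f | ∃ a ∈ τ.ker, ∀ v, f v = a • v - v}
      zero_mem' := ⟨1, τ.ker.one_mem, fun v => by simp⟩
      add_mem' := by
        rintro f g ⟨a, ha, hf⟩ ⟨b, hb, hg⟩
        exact ⟨a * b, τ.ker.mul_mem ha hb, fun v => by rw [AddMonoidHom.add_apply, hf, hg, h.delta_mul ha hb]⟩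
      neg_mem' := by
        rintro f ⟨a, ha, hf⟩
        exact ⟨a⁻¹, τ.ker.inv_mem ha, fun v => by rw [AddMonoidHom.neg_apply, hf, h.delta_inv ha]⟩ }
  have hfinVV : Finite (V →+ V) := Finite.of_injective (fun f : V →+ V => (f : V → V)) DFunLike.coe_injective
  have hcS : Nat.card S ≤ Nat.card τ.ker := by
    have h1 : ∀ f : S, ∃ a : τ.ker, ∀ v, (f : V →+ V) v = (a : D) • v - v := fun f => by
      obtain ⟨a, ha, hf⟩ := f.2
      exact ⟨⟨a, ha⟩, hf⟩
    choose g hg using h1
    refine Nat.card_le_card_of_injective g ?_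
    intro f f' hff
    apply Subtype.ext
    ext v
    rw [hg, hg, hff]
  let T : (V →+ V) →+ (V →+ V) :=
    { toFun := fun f => ((DistribSMul.toAddMonoidHom V x).comp f).comp (DistribSMul.toAddMonoidHom V x⁻¹)
      map_zero' := by ext v; simp
      map_add' := fun f g => by ext v; simp }
  have hT : ∀ (f : V →+ V) (v : V), T f v = x • f (x⁻¹ • v) := fun f v => rfl
  have hTS : ∀ f ∈ S, T f ∈ S := by
    rintro f ⟨a, ha, hf⟩
    refine ⟨x * a * x⁻¹, (MonoidHom.normal_ker τ).conj_mem a ha x, fun v => ?_⟩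
    rw [hT, hf, smul_sub, smul_inv_smul, ← mul_smul, ← mul_smul]
  let g : S →+ S := (T.comp S.subtype).codRestrict S fun f => hTS f f.2
  have hgi : ∀ (i : ℕ) (f : S) (v : V), ((g^[i] f : S) : V →+ V) v = x ^ i • (f : V →+ V) ((x ^ i)⁻¹ • v) := by
    intro i
    induction i with
    | zero => intro f v; simp
    | succ i ih =>
      intro f v
      rw [Function.iterate_succ_apply']
      change T ((g^[i] f : S) : V →+ V) v = _
      rw [hT, ih, ← mul_smul, ← mul_smul, pow_succ', mul_inv_rev]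
  have h1 := fix_of_small hr hrn h.pos (A := S) (fun f => Subtype.ext (by
      ext v
      change p • (f : V →+ V) v = 0
      exact h.exp _)) (lt_of_le_of_lt hcS h.lt) g (fun f => Subtype.ext (by
      ext v
      rw [hgi, hx, inv_one, one_smul, one_smul]))
  -- `f = δ a`
  let f : V →+ V := DistribSMul.toAddMonoidHom V a - AddMonoidHom.id V
  have hf : ∀ v, f v = a • v - v := fun v => rfl
  have hfS : f ∈ S := ⟨a, ha, hf⟩
  have h2 : T f = f := congrArg Subtype.val (h1 ⟨f, hfS⟩)
  have h3 : x * a * x⁻¹ * a⁻¹ = 1 := by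
    have h4 : x * a * x⁻¹ ∈ τ.ker := (MonoidHom.normal_ker τ).conj_mem a ha x
    refine h.eq_one (τ.ker.mul_mem h4 (τ.ker.inv_mem ha)) fun v => ?_
    have h5 : (x * a * x⁻¹) • v - v = a • v - v := by
      have h6 := DFunLike.congr_fun h2 v
      rw [hT, hf, hf, smul_sub, smul_inv_smul, ← mul_smul, ← mul_smul] at h6
      exact h6
    have h7 := h.delta_mul h4 (τ.ker.inv_mem ha) v
    rw [h5, h.delta_inv ha, add_neg_cancel, sub_eq_zero] at h7
    exact h7
  have h4 : x * a * x⁻¹ = a := mul_inv_eq_one.1 h3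
  exact mul_inv_eq_iff_eq_mul.1 h4

/-- an element of order `r` acts without fixed points on `U` -/
theorem fpf (hr : r.Prime) (hrn : orderOf (p : ZMod r) = n) {y : D} (hy : orderOf y = r) :
    ∀ u : U, τ y u = u → u = 0 := by
  have hrp := ne_of_ord hr hrn h.pos
  have hit : ∀ (i : ℕ) (u : U), ((τ y : U →ₗ[ZMod p] U) : U →+ U)^[i] u = τ (y ^ i) u := by
    intro i
    induction i with
    | zero => intro u; rw [pow_zero, map_one]; rfl
    | succ i ih =>
      intro u
      rw [Function.iterate_succ_apply', ih, pow_succ', map_mul]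
      rfl
  have h1 := fix_or hr hrn h.pos (A := U) h.expU h.cardU ((τ y : U →ₗ[ZMod p] U) : U →+ U) (fun u => by
    rw [hit, ← hy, pow_orderOf_eq_one, map_one]; rfl)
  rcases h1 with h1 | h1
  · exfalso
    have h2 : y ∈ τ.ker := by
      rw [MonoidHom.mem_ker]
      ext u
      exact h1 u
    obtain ⟨k, hk⟩ := (h.pgrp ⟨y, h2⟩)
    have h3 : y ^ p ^ k = 1 := congrArg Subtype.val hk
    have h4 := orderOf_dvd_of_pow_eq_one h3
    rw [hy] at h4
    exact hrp ((Nat.prime_dvd_prime_iff_eq hr hp.out).1 (hr.dvd_of_dvd_pow h4))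
  · exact h1

/-- and irreducibly -/
theorem irrU (hr : r.Prime) (hrn : orderOf (p : ZMod r) = n) {y : D} (hy : orderOf y = r) (S : AddSubgroup U)
    (hS : ∀ s ∈ S, τ y s ∈ S) : S = ⊥ ∨ S = ⊤ := by
  have hit : ∀ (i : ℕ) (u : U), ((τ y : U →ₗ[ZMod p] U) : U →+ U)^[i] u = τ (y ^ i) u := by
    intro i
    induction i with
    | zero => intro u; rw [pow_zero, map_one]; rfl
    | succ i ih =>
      intro u
      rw [Function.iterate_succ_apply', ih, pow_succ', map_mul]
      rfl
  exact irr hr hrn h.pos (A := U) h.expU h.cardU ((τ y : U →ₗ[ZMod p] U) : U →+ U) (fun u => by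
    rw [hit, ← hy, pow_orderOf_eq_one, map_one]; rfl) (h.fpf hr hrn hy) S hS

/-- `δ a : V → W` is surjective for `1 ≠ a ∈ A` -/
theorem delta_surj {a : D} (ha : a ∈ τ.ker) (ha1 : a ≠ 1) {w : V} (hw : w ∈ pr.ker) : ∃ v : V, a • v - v = w := by
  classical
  let f : V →+ pr.ker := (DistribSMul.toAddMonoidHom V a - AddMonoidHom.id V).codRestrict pr.ker fun v => h.delta_mem ha v
  have hf : ∀ v, ((f v : pr.ker) : V) = a • v - v := fun v => rfl
  have hk : f.ker = pr.ker := by
    ext v
    rw [AddMonoidHom.mem_ker]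
    constructor
    · intro h1
      have h2 : a • v - v = 0 := by rw [← hf, h1]; rfl
      exact h.fixA a ha ha1 v (sub_eq_zero.1 h2)
    · intro h1
      apply Subtype.ext
      rw [hf, h.triv a ha v h1, sub_self]; rfl
  have h1 : Nat.card f.ker * Nat.card f.range = Nat.card V := by
    rw [← Nat.card_congr (QuotientAddGroup.quotientKerEquivRange f).toEquiv, mul_comm]
    exact (AddSubgroup.card_eq_card_quotient_mul_card_addSubgroup f.ker).symm
  have h2 : Nat.card pr.ker * Nat.card U = Nat.card V := by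
    rw [← Nat.card_congr (QuotientAddGroup.quotientKerEquivOfSurjective pr h.surj).toEquiv, mul_comm]
    exact (AddSubgroup.card_eq_card_quotient_mul_card_addSubgroup pr.ker).symm
  rw [hk, ← h2] at h1
  have h3 : Nat.card f.range = Nat.card pr.ker := by
    rw [h.cardW]
    exact Nat.eq_of_mul_eq_mul_left Nat.card_pos h1
  have h4 : f.range = ⊤ := AddSubgroup.eq_top_of_card_eq _ h3
  have h5 : (⟨w, hw⟩ : pr.ker) ∈ f.range := by rw [h4]; trivial
  obtain ⟨v, hv⟩ := h5
  exact ⟨v, congrArg Subtype.val hv⟩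

/-- **`|A| ^ 2 ≤ p ^ n`** -/
theorem sq_le [Finite D] (hr : r.Prime) (hrn : orderOf (p : ZMod r) = n) (hr2 : r ≠ 2) {y : D} (hy : orderOf y = r)
    {Z : Type*} [AddCommGroup Z] (ε : Z →+ Z) (β : V →+ V →+ Z) (hβD : ∀ (x : D) (u v : V), β (x • u) (x • v) = β u v)
    (hβn : ∀ u : V, (∀ w ∈ pr.ker, β u w = 0) → u ∈ pr.ker)
    (hβA : ∀ a ∈ τ.ker, ∀ u v : V, β u (a • v - v) = ε (β v (a • u - u))) :
    Nat.card τ.ker ^ 2 ≤ p ^ n := by
  classical
  have hyr : y ^ r = 1 := by rw [← hy]; exact pow_orderOf_eq_one y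
  have hcy : ∀ a ∈ τ.ker, y * a = a * y := fun a ha => h.comm_of_pow hr hrn hyr ha
  have hdy : ∀ a ∈ τ.ker, ∀ v : V, y • (a • v - v) = a • (y • v) - y • v := by
    intro a ha v
    rw [smul_sub, ← mul_smul, hcy a ha, mul_smul]
  obtain ⟨v₀, hv₀⟩ := h.exists_not_mem
  let Ψ : τ.ker × τ.ker → pr.ker := fun z =>
    ⟨((z.1 : D) • v₀ - v₀) + ((z.2 : D) • (y • v₀) - y • v₀),
      pr.ker.add_mem (h.delta_mem z.1.2 _) (h.delta_mem z.2.2 _)⟩
  have hinj : Function.Injective Ψ := by
    rintro ⟨a, b⟩ ⟨a', b'⟩ hab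
    have h1 : ((a : D) • v₀ - v₀) + ((b : D) • (y • v₀) - y • v₀) =
        ((a' : D) • v₀ - v₀) + ((b' : D) • (y • v₀) - y • v₀) := congrArg Subtype.val hab
    set c : D := a * (a' : D)⁻¹ with hc
    set e : D := b' * (b : D)⁻¹ with he
    have hck : c ∈ τ.ker := τ.ker.mul_mem a.2 (τ.ker.inv_mem a'.2)
    have hek : e ∈ τ.ker := τ.ker.mul_mem b'.2 (τ.ker.inv_mem b.2)
    have h2 : c • v₀ - v₀ = e • (y • v₀) - y • v₀ := by
      rw [hc, he, h.delta_mul a.2 (τ.ker.inv_mem a'.2), h.delta_mul b'.2 (τ.ker.inv_mem b.2),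
        h.delta_inv a'.2, h.delta_inv b.2, ← sub_eq_add_neg, ← sub_eq_add_neg, sub_eq_sub_iff_add_eq_add, h1]
      abel
    -- `θ v = δ c v - δ e (y v)` vanishes
    let θ : V →+ V := (DistribSMul.toAddMonoidHom V c - AddMonoidHom.id V) -
      (DistribSMul.toAddMonoidHom V e - AddMonoidHom.id V).comp (DistribSMul.toAddMonoidHom V y)
    have hθ : ∀ v, θ v = (c • v - v) - (e • (y • v) - y • v) := fun v => rfl
    have hθy : ∀ v, θ (y • v) = y • θ v := by
      intro v
      rw [hθ, hθ, smul_sub, hdy c hck, hdy e hek]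
    have hθW : ∀ w ∈ pr.ker, θ w = 0 := by
      intro w hw
      have hw' : y • w ∈ pr.ker := by rw [AddMonoidHom.mem_ker, h.act, AddMonoidHom.mem_ker.1 hw, map_zero]
      rw [hθ, h.triv c hck w hw, h.triv e hek _ hw', sub_self, sub_self, sub_self]
    have hθ0 : ∀ v, θ v = 0 := by
      have h3 := h.irrU hr hrn hy (θ.ker.map pr) (by
        rintro _ ⟨v, hv, rfl⟩
        refine ⟨y • v, ?_, h.act y v⟩
        change θ (y • v) = 0
        rw [hθy, AddMonoidHom.mem_ker.1 hv, smul_zero])
      have h4 : θ.ker.map pr ≠ ⊥ := by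
        intro h5
        apply hv₀
        have h6 : pr v₀ ∈ θ.ker.map pr := ⟨v₀, by
          change θ v₀ = 0
          rw [hθ, h2, sub_self], rfl⟩
        rw [h5] at h6
        exact h6
      have h5 := h3.resolve_left h4
      intro v
      have h6 : pr v ∈ θ.ker.map pr := by rw [h5]; trivial
      obtain ⟨v', hv', hvv⟩ := h6
      have h7 : v - v' ∈ pr.ker := by rw [AddMonoidHom.mem_ker, map_sub, hvv, sub_self]
      have h8 := hθW _ h7
      rw [map_sub, AddMonoidHom.mem_ker.1 hv', sub_zero] at h8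
      exact h8
    have hce : ∀ v, c • v - v = e • (y • v) - y • v := fun v => sub_eq_zero.1 (hθ0 v)
    -- `e = 1`
    have he1 : e = 1 := by
      by_contra he1
      have k1 : ∀ u v : V, β u (e • (y • v) - y • v) = β (y • u) (e • v - v) := by
        intro u v
        rw [← hce v, hβA c hck, hce u, hβA e hek (y • u) v]
      have k2 : ∀ u v : V, β u (e • (y • v - y⁻¹ • v) - (y • v - y⁻¹ • v)) = 0 := by
        intro u v
        have h3 : β (y • u) (e • v - v) = β u (e • (y⁻¹ • v) - y⁻¹ • v) := by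
          have h4 : e • v - v = y • (e • (y⁻¹ • v) - y⁻¹ • v) := by
            rw [hdy e hek, smul_inv_smul]
          rw [h4, hβD]
        have h5 := k1 u v
        rw [h3] at h5
        have h6 : e • (y • v - y⁻¹ • v) - (y • v - y⁻¹ • v) =
            (e • (y • v) - y • v) - (e • (y⁻¹ • v) - y⁻¹ • v) := by rw [smul_sub]; abel
        rw [h6, map_sub, h5, sub_self]
      have k3 : ∀ v : V, y • v - y⁻¹ • v ∈ pr.ker := by
        intro v
        refine hβn _ fun w hw => ?_
        obtain ⟨u, hu⟩ := h.delta_surj hek he1 hw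
        rw [← hu, hβA e hek, k2, map_zero]
      have k4 : ∀ u : U, τ (y ^ 2) u = u := by
        intro u
        obtain ⟨v, rfl⟩ := h.surj u
        have h3 := k3 (y • v)
        rw [inv_smul_smul, AddMonoidHom.mem_ker, map_sub, ← mul_smul, h.act, sub_eq_zero] at h3
        rw [pow_two]
        exact h3
      have k5 : ∀ u : U, τ y u = u := by
        intro u
        obtain ⟨k, hk⟩ : Odd r := hr.odd_of_ne_two hr2
        have h3 : ∀ i, τ ((y ^ 2) ^ i) u = u := by
          intro i
          induction i with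
          | zero => rw [pow_zero, map_one]; rfl
          | succ i ih =>
            rw [pow_succ, map_mul]
            change τ ((y ^ 2) ^ i) (τ (y ^ 2) u) = u
            rw [k4, ih]
        have h4 : y = (y ^ 2) ^ (k + 1) := by
          rw [← pow_mul, show 2 * (k + 1) = r + 1 from by omega, pow_succ, hyr, one_mul]
        rw [h4, h3]
      obtain ⟨v, hv⟩ := h.exists_not_mem
      exact hv (h.fpf hr hrn hy _ (k5 (pr v)))
    have hc1 : c = 1 := h.eq_one hck fun v => by
      have h3 := hce v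
      rw [he1, one_smul, sub_self, sub_eq_zero] at h3
      exact h3
    have h3 : (a : D) = a' := mul_inv_eq_one.1 hc1
    have h4 : (b' : D) = b := mul_inv_eq_one.1 he1
    rw [Prod.mk.injEq]
    exact ⟨Subtype.ext h3, Subtype.ext h4.symm⟩
  have h1 := Nat.card_le_card_of_injective Ψ hinj
  rw [Nat.card_prod, h.cardW, h.cardU] at h1
  rw [pow_two]
  exact h1

end Sit

end act

end Cfsg.Agent.H386.Rg
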