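import Mathlib

/-!
# S3691, residual case F-D+2 : the abstract frame (helper386)

Plan: section 11 of tools/plans/S3691.md.  `V` is a nondegenerate quadratic space of plus type of dimension `2m` over the field with
`q = p^f` elements and `K` is a group of isometries (the preimage of one factor), the other factor is the stabiliser of an anisotropic plane.
-/

set_option autoImplicit false

namespace Cfsg.Agent.H386.Rg

open QuadraticMap Module

universe u v

variable {F : Type u} {V : Type v} [Field F] [AddCommGroup V] [Module F V]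

/-- `⟨u, w⟩` is an anisotropic plane -/
def Aniso (Q : QuadraticForm F V) (u w : V) : Prop :=
  ∀ a b : F, Q (a • u + b • w) = 0 → a = 0 ∧ b = 0

/-- the table of sizes of `PΩ⁺_{2m}(q)` (from `3 * 29!`) -/
def SzD (m q : ℕ) : Prop := (m = 5 → 4 < q) ∧ (m ≤ 7 → 2 < q)

/-- **the abstract frame of the residual case F-D+2** (`m' = m - 1`) -/
structure D2 [Finite F] [FiniteDimensional F V] (Q : QuadraticForm F V) (p f m : ℕ) (K : Subgroup (V ≃ₗ[F] V)) : Prop where
  hp : p.Prime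
  hf : 1 ≤ f
  hF : Nat.card F = p ^ f
  hm : 5 ≤ m
  size : SzD m (p ^ f)
  dim : finrank F V = 2 * m
  nd : ∀ v : V, (∀ w, polar Q v w = 0) → v = 0
  plus : ∃ W : Submodule F V, (∀ w ∈ W, Q w = 0) ∧ finrank F W = m
  iso : ∀ k ∈ K, ∀ v, Q (k v) = Q v
  /-- `K` lies in `SO(V)` (the kernel of the Dickson invariant) -/
  even : ∀ k ∈ K, Even (finrank F (LinearMap.range ((k : V →ₗ[F] V) - LinearMap.id)))
  /-- (F) -/
  fix : ∀ k ∈ K, k ≠ 1 → ∀ u w : V, Aniso Q u w → k u = u → k w = w → False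
  /-- an involution which is unique in `K` up to sign (then the other factor and `K` fix planes: impossible) -/
  inv : p ≠ 2 → ∀ t ∈ K, t * t = 1 → t ≠ 1 → (∃ v, t v ≠ -v) → ∃ s ∈ K, s * s = 1 ∧ s ≠ 1 ∧ s ≠ t ∧ ∃ v, s v ≠ -v
  /-- (N) -/
  card_ge : p ^ (f * (2 * m - 2)) * (p ^ (f * m) - 1) * (p ^ (f * (m - 1)) - 1) ≤
    2 * (p ^ f + 1) * ((if p = 2 then 2 else 8) * f) * Nat.card K
  card_p : f * (2 * m - 2) ≤ (Nat.card K).factorization p + (if p = 2 then (4 * f).factorization p else f.factorization p)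
  card_dvd : Nat.card K ∣ 2 * (p ^ (f * (2 * m - 2)) * (p ^ (f * m) - 1) * (p ^ (f * (m - 1)) - 1))
  card_dvd2 : p = 2 → Nat.card K ∣ p ^ (f * (2 * m - 2)) * (p ^ (f * m) - 1) * (p ^ (f * (m - 1)) - 1)
  /-- the primitive primes -/
  rdvd : ∀ r : ℕ, r.Prime → (orderOf (p : ZMod r) = f * m ∨ orderOf (p : ZMod r) = f * (m - 1)) → r ∣ Nat.card K

/-- the stabiliser of the vector `v` in `K` -/
def stb (K : Subgroup (V ≃ₗ[F] V)) (v : V) : Subgroup (V ≃ₗ[F] V) where
  carrier := {k | k ∈ K ∧ k v = v}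
  one_mem' := ⟨K.one_mem, rfl⟩
  mul_mem' := fun {a b} ha hb => ⟨K.mul_mem ha.1 hb.1, by
    change a (b v) = v
    rw [hb.2, ha.2]⟩
  inv_mem' := fun {a} ha => ⟨K.inv_mem ha.1, by
    change a.symm v = v
    rw [LinearEquiv.symm_apply_eq]
    exact ha.2.symm⟩

theorem mem_stb {K : Subgroup (V ≃ₗ[F] V)} {v : V} {k : V ≃ₗ[F] V} : k ∈ stb K v ↔ k ∈ K ∧ k v = v := Iff.rfl

end Cfsg.Agent.H386.Rg
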